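import Mathlib.GroupTheory.SpecificGroups.Alternating
import Mathlib.Tactic

/-!
Three-cycles written on their points, and a criterion for an extension of an alternating group
with an equivariant family of lifts of the three-cycles to split.
-/

set_option autoImplicit false

namespace Cfsg.Agent.Lib.SchurAlt

open Equiv Equiv.Perm
open scoped commutatorElement

universe u v

variable {α : Type u} [DecidableEq α]

/-- The cycle `a → b → c → a`. -/
def tri (a b c : α) : Perm α := swap a c * swap a b

variable {a b c : α}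

theorem tri_apply_first (hab : a ≠ b) (hbc : b ≠ c) : tri a b c a = b := by
  simp [tri, swap_apply_def, Ne.symm hab, hbc]

theorem tri_apply_second : tri a b c b = c := by
  simp [tri]

theorem tri_apply_third (hac : a ≠ c) (hbc : b ≠ c) : tri a b c c = a := by
  simp [tri, swap_apply_def, Ne.symm hac, Ne.symm hbc]

theorem tri_apply_of_ne {x : α} (ha : x ≠ a) (hb : x ≠ b) (hc : x ≠ c) : tri a b c x = x := by
  simp [tri, swap_apply_def, ha, hb, hc]

theorem tri_rotate (hab : a ≠ b) (hac : a ≠ c) (hbc : b ≠ c) : tri a b c = tri b c a := by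
  refine Equiv.ext fun x => ?_
  by_cases ha : x = a
  · rw [ha, tri_apply_first hab hbc, tri_apply_third hab.symm hac.symm]
  by_cases hb : x = b
  · rw [hb, tri_apply_second, tri_apply_first hbc hac.symm]
  by_cases hc : x = c
  · rw [hc, tri_apply_third hac hbc, tri_apply_second]
  rw [tri_apply_of_ne ha hb hc, tri_apply_of_ne hb hc ha]

theorem tri_inv (hab : a ≠ b) (hac : a ≠ c) (hbc : b ≠ c) : (tri a b c)⁻¹ = tri a c b := by
  refine inv_eq_of_mul_eq_one_right (Equiv.ext fun x => ?_)
  rw [Perm.mul_apply, Perm.one_apply]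
  by_cases ha : x = a
  · rw [ha, tri_apply_first hac hbc.symm, tri_apply_third hac hbc]
  by_cases hb : x = b
  · rw [hb, tri_apply_third hab hbc.symm, tri_apply_first hab hbc]
  by_cases hc : x = c
  · rw [hc, tri_apply_second, tri_apply_second]
  rw [tri_apply_of_ne ha hc hb, tri_apply_of_ne ha hb hc]

theorem conj_tri (g : Perm α) (a b c : α) : g * tri a b c * g⁻¹ = tri (g a) (g b) (g c) := by
  simp only [tri, swap_apply_apply]
  group

variable [Fintype α]

theorem isThreeCycle_tri (hab : a ≠ b) (hac : a ≠ c) (hbc : b ≠ c) : IsThreeCycle (tri a b c) :=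
  isThreeCycle_swap_mul_swap_same hac hab hbc.symm

/-- A three-cycle is written on any point it moves. -/
theorem exists_tri_of_moves {t : Perm α} (ht : IsThreeCycle t) {k : α} (hk : t k ≠ k) :
    ∃ b c, b ≠ k ∧ c ≠ k ∧ b ≠ c ∧ t = tri b k c := by
  have h3 : t ^ 3 = 1 := ht.orderOf ▸ pow_orderOf_eq_one t
  have h3' : ∀ x, t (t (t x)) = x := fun x => by
    have := congrArg (fun p : Perm α => p x) h3
    simpa [pow_succ, Perm.mul_apply] using this
  have h1 : t (t k) ≠ k := fun h => hk (by conv_rhs => rw [← h3' k, h])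
  have h2 : t k ≠ t (t k) := fun h => hk (t.injective h).symm
  refine ⟨t (t k), t k, h1, hk, h2.symm, ?_⟩
  have hsupp : t.support = {t (t k), k, t k} := by
    refine (Finset.eq_of_subset_of_card_le ?_ ?_).symm
    · intro x hx
      simp only [Finset.mem_insert, Finset.mem_singleton] at hx
      rcases hx with rfl | rfl | rfl
      · exact apply_mem_support.mpr (apply_mem_support.mpr (mem_support.mpr hk))
      · exact mem_support.mpr hk
      · exact apply_mem_support.mpr (mem_support.mpr hk)
    · rw [ht.card_support, Finset.card_insert_of_notMem, Finset.card_pair hk.symm]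
      simp [h1, h2.symm]
  refine Equiv.ext fun x => ?_
  by_cases ha : x = t (t k)
  · rw [ha, h3', tri_apply_first h1 hk.symm]
  by_cases hb : x = k
  · rw [hb, tri_apply_second]
  by_cases hc : x = t k
  · rw [hc, tri_apply_third h2.symm hk.symm]
  rw [tri_apply_of_ne ha hb hc]
  exact notMem_support.mp (by rw [hsupp]; simp [ha, hb, hc])

/-- Lifts of the three-cycles, equivariant and obeying the rule for two cycles with a common
arrow. -/
structure TriLift {Γ : Type v} [Group Γ] (π : Γ →* Perm α) where
  lift : Perm α → Γ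
  map_lift : ∀ {t}, IsThreeCycle t → π (lift t) = t
  conj_lift : ∀ {t}, IsThreeCycle t → ∀ h : Γ, h * lift t * h⁻¹ = lift (π h * t * (π h)⁻¹)
  pow_lift : ∀ {t}, IsThreeCycle t → lift t ^ 3 = 1
  inv_lift : ∀ {t}, IsThreeCycle t → lift t⁻¹ = (lift t)⁻¹
  edge : ∀ {k a c d : α}, k ≠ a → k ≠ c → k ≠ d → a ≠ c → a ≠ d → c ≠ d →
    lift (tri k a c) * (lift (tri k a d))⁻¹ = lift (tri k d c)

namespace TriLift

variable {Γ : Type v} [Group Γ] {π : Γ →* Perm α} (S : TriLift π)

/-- The lifts of the three-cycles supported in `A`. -/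
def gens (A : Finset α) : Set Γ :=
  {x | ∃ t, IsThreeCycle t ∧ t.support ⊆ A ∧ x = S.lift t}

theorem fixes {A : Finset α} {h : Γ} (hh : h ∈ Subgroup.closure (S.gens A)) {x : α} (hx : x ∉ A) :
    π h x = x := by
  induction hh using Subgroup.closure_induction with
  | mem y hy =>
    obtain ⟨t, ht, htA, rfl⟩ := hy
    rw [S.map_lift ht]
    exact notMem_support.mp fun h => hx (htA h)
  | one => rw [map_one, Perm.one_apply]
  | mul y z _ _ hy hz => rw [map_mul, Perm.mul_apply, hz, hy]
  | inv y _ hy => rw [map_inv]; exact inv_eq_iff_eq.mpr hy.symm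

theorem tri_edge {k a c d : α} (hka : k ≠ a) (hkc : k ≠ c) (hkd : k ≠ d) (hac : a ≠ c)
    (had : a ≠ d) (hcd : c ≠ d) : S.lift (tri a k c) =
      S.lift (tri a d c) * S.lift (tri a k d) := by
  rw [← S.edge hka.symm hac had hkc hkd hcd, inv_mul_cancel_right]

/-- An element of the subgroup of `insert k A` is in that of `A` or is such times a cycle moving
`k`. -/
theorem cases_insert {A : Finset α} {k : α} {h : Γ} (hh : h ∈ Subgroup.closure (S.gens (insert k A))) :
    h ∈ Subgroup.closure (S.gens A) ∨ ∃ s ∈ Subgroup.closure (S.gens A), ∃ a d, a ∈ A ∧ d ∈ A ∧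
      a ≠ k ∧ d ≠ k ∧ a ≠ d ∧ h = s * S.lift (tri a k d) := by
  set H := Subgroup.closure (S.gens A) with hH
  have hmem : ∀ {t}, IsThreeCycle t → t.support ⊆ A → S.lift t ∈ H := fun ht hA =>
    Subgroup.subset_closure ⟨_, ht, hA, rfl⟩
  have htriA : ∀ {a b c : α}, a ∈ A → b ∈ A → c ∈ A → (tri a b c).support ⊆ A := by
    intro a b c ha hb hc x hx
    by_contra hxA
    exact mem_support.mp hx (tri_apply_of_ne (fun e => hxA (e ▸ ha)) (fun e => hxA (e ▸ hb))
      fun e => hxA (e ▸ hc))
  -- the last point of a representative may be changed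
  have hchange : ∀ {a d e : α}, a ∈ A → d ∈ A → e ∈ A → a ≠ k → d ≠ k → e ≠ k → a ≠ d → a ≠ e →
      ∃ s ∈ H, S.lift (tri a k d) = s * S.lift (tri a k e) := by
    intro a d e ha hd he hak hdk hek had hae
    by_cases hde : d = e
    · subst hde; exact ⟨1, H.one_mem, (one_mul _).symm⟩
    · exact ⟨_, hmem (isThreeCycle_tri hae had (Ne.symm hde)) (htriA ha he hd),
        S.tri_edge hak.symm hdk.symm hek.symm had hae hde⟩
  -- one generator
  have hgen : ∀ t, IsThreeCycle t → t.support ⊆ insert k A → ∀ h : Γ,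
      (h ∈ H ∨ ∃ s ∈ H, ∃ a d, a ∈ A ∧ d ∈ A ∧ a ≠ k ∧ d ≠ k ∧ a ≠ d ∧ h = s * S.lift (tri a k d)) →
      (h * S.lift t ∈ H ∨ ∃ s ∈ H, ∃ a d, a ∈ A ∧ d ∈ A ∧ a ≠ k ∧ d ≠ k ∧ a ≠ d ∧
        h * S.lift t = s * S.lift (tri a k d)) := by
    intro t ht htA h hh
    by_cases hk : t k = k
    · -- the generator fixes `k`
      have htA' : t.support ⊆ A := fun x hx => by
        rcases Finset.mem_insert.mp (htA hx) with rfl | hx'
        · exact absurd hk (mem_support.mp hx)
        · exact hx'
      rcases hh with h1 | ⟨s, hs, a, d, ha, hd, hak, hdk, had, rfl⟩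
      · exact Or.inl (H.mul_mem h1 (hmem ht htA'))
      · have hinv : ∀ x ∈ A, t⁻¹ x ∈ A := fun x hx => by
          by_cases hx' : x ∈ t.support
          · rw [← support_inv] at hx'
            have h3 := apply_mem_support.mpr hx'
            rw [support_inv] at h3
            exact htA' h3
          · rw [← support_inv, notMem_support] at hx'
            rw [hx']
            exact hx
        have hne : ∀ x, x ≠ k → t⁻¹ x ≠ k := fun x hx e => hx (by
          rw [inv_eq_iff_eq] at e; rw [e, hk])
        refine Or.inr ⟨s * S.lift t, H.mul_mem hs (hmem ht htA'), t⁻¹ a, t⁻¹ d, hinv a ha, hinv d hd,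
          hne a hak, hne d hdk, fun e => had ((t⁻¹).injective e), ?_⟩
        have h2 := S.conj_lift (isThreeCycle_tri hak had hdk.symm) (S.lift t)⁻¹
        rw [map_inv, S.map_lift ht, conj_tri, inv_inv] at h2
        rw [show t⁻¹ k = k by rw [inv_eq_iff_eq, hk]] at h2
        rw [← h2]; group
    · obtain ⟨b, c, hbk, hck, hbc, rfl⟩ := exists_tri_of_moves ht hk
      have hbA : b ∈ A := by
        have := htA (mem_support.mpr (show tri b k c b ≠ b by
          rw [tri_apply_first hbk hck.symm]; exact hbk.symm))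
        exact (Finset.mem_insert.mp this).resolve_left hbk
      have hcA : c ∈ A := by
        have := htA (mem_support.mpr (show tri b k c c ≠ c by
          rw [tri_apply_third hbc hck.symm]; exact hbc))
        exact (Finset.mem_insert.mp this).resolve_left hck
      rcases hh with h1 | ⟨s, hs, a, d, ha, hd, hak, hdk, had, rfl⟩
      · exact Or.inr ⟨h, h1, b, c, hbA, hcA, hbk, hck, hbc, rfl⟩
      by_cases hca : c = a
      · -- the product falls into the subgroup
        subst hca
        obtain ⟨s', hs', he⟩ := hchange ha hd hbA hak hdk hbk had hbc.symm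
        refine Or.inl ?_
        have hinv : S.lift (tri c k b) = (S.lift (tri b k c))⁻¹ := by
          rw [← S.inv_lift ht, tri_inv hbk hbc hck.symm, tri_rotate hbc hbk hck]
        rw [he, hinv, ← mul_assoc s s', inv_mul_cancel_right]
        exact H.mul_mem hs hs'
      by_cases hba : b = a
      · subst hba
        obtain ⟨s', hs', he⟩ := hchange ha hd hcA hak hdk hck had hbc
        refine Or.inr ⟨s * s', H.mul_mem hs hs', c, b, hcA, hbA, hck, hbk, hbc.symm, ?_⟩
        have hsq : S.lift (tri b k c) * S.lift (tri b k c) = S.lift (tri c k b) := by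
          rw [show tri c k b = (tri b k c)⁻¹ by
              rw [tri_inv hbk hbc hck.symm, tri_rotate hbc hbk hck], S.inv_lift ht, eq_inv_iff_mul_eq_one]
          rw [← S.pow_lift ht, pow_succ, pow_two]
        rw [he, ← mul_assoc s s', mul_assoc, hsq]
      · obtain ⟨s', hs', he⟩ := hchange ha hd hbA hak hdk hbk had (Ne.symm hba)
        refine Or.inr ⟨s * s', H.mul_mem hs hs', a, c, ha, hcA, hak, hck, Ne.symm hca, ?_⟩
        have h2 := S.edge (k := k) (a := b) (c := a) (d := c) hbk.symm hak.symm hck.symm hba hbc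
          (Ne.symm hca)
        have hy : (S.lift (tri k b c))⁻¹ = S.lift (tri b k c) := by
          rw [← S.inv_lift (isThreeCycle_tri hbk.symm hck.symm hbc), tri_inv hbk.symm hck.symm hbc,
            tri_rotate hbk hbc hck.symm]
        rw [hy, tri_rotate hbk.symm hak.symm (hba),
          show tri k c a = tri a k c from (tri_rotate hak (Ne.symm hca) hck.symm).symm] at h2
        rw [he, ← mul_assoc s s', mul_assoc (s * s'), ← h2]
        congr 2
        rw [tri_rotate hba hbk hak, tri_rotate hak (Ne.symm hba) hbk.symm]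
  induction hh using Subgroup.closure_induction_right with
  | one => exact Or.inl H.one_mem
  | mul_right x y _ hy hx =>
    obtain ⟨t, ht, htA, rfl⟩ := hy
    exact hgen t ht htA x hx
  | mul_inv_cancel x y _ hy hx =>
    obtain ⟨t, ht, htA, rfl⟩ := hy
    rw [← S.inv_lift ht]
    exact hgen t⁻¹ ht.inv (by rwa [support_inv]) x hx

theorem eq_one_of_map_eq_one (A : Finset α) :
    ∀ {h : Γ}, h ∈ Subgroup.closure (S.gens A) → π h = 1 → h = 1 := by
  induction A using Finset.induction with
  | empty =>
    intro h hh _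
    have : S.gens (∅ : Finset α) = ∅ := Set.eq_empty_of_forall_notMem fun x hx => by
      obtain ⟨t, ht, hA, -⟩ := hx
      have := ht.card_support
      rw [Finset.subset_empty.mp hA] at this
      simp at this
    rw [this, Subgroup.closure_empty] at hh
    exact Subgroup.mem_bot.mp hh
  | insert k A hkA ih =>
    intro h hh h1
    rcases S.cases_insert hh with hH | ⟨s, hs, a, d, ha, hd, hak, hdk, had, rfl⟩
    · exact ih hH h1
    · exfalso
      rw [map_mul, S.map_lift (isThreeCycle_tri hak had hdk.symm)] at h1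
      have := congrArg (fun p : Perm α => p a) h1
      simp only [Perm.mul_apply, Perm.one_apply, tri_apply_first hak hdk.symm, S.fixes hs hkA] at this
      exact hak this.symm

include S in
/-- A stem extension with such lifts is trivial. -/
theorem ker_inf_commutator_eq_bot (hrange : π.range ≤ alternatingGroup α)
    (hker : π.ker ≤ Subgroup.center Γ) {z : Γ} (hz : π z = 1) (hzc : z ∈ commutator Γ) : z = 1 := by
  set T := Subgroup.closure (S.gens Finset.univ) with hT
  refine S.eq_one_of_map_eq_one Finset.univ ?_ hz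
  have hmap : alternatingGroup α ≤ T.map π := by
    rw [← closure_three_cycles_eq_alternating, Subgroup.closure_le]
    exact fun t ht => ⟨S.lift t, Subgroup.subset_closure ⟨t, ht, Finset.subset_univ _, rfl⟩,
      S.map_lift ht⟩
  have hdec : ∀ x : Γ, ∃ s ∈ T, ∃ w ∈ Subgroup.center Γ, x = s * w := fun x => by
    obtain ⟨s, hs, hsx⟩ := hmap (hrange ⟨x, rfl⟩)
    refine ⟨s, hs, s⁻¹ * x, hker ?_, by group⟩
    rw [MonoidHom.mem_ker, map_mul, map_inv, hsx, inv_mul_cancel]
  have hle : commutator Γ ≤ T := by
    rw [commutator_def, Subgroup.commutator_le]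
    intro x _ y _
    obtain ⟨s, hs, w, hw, rfl⟩ := hdec x
    obtain ⟨r, hr, v, hv, rfl⟩ := hdec y
    have hw' := Subgroup.mem_center_iff.mp hw
    have hv' := Subgroup.mem_center_iff.mp hv
    have : ⁅s * w, r * v⁆ = ⁅s, r⁆ := by
      rw [commutatorElement_def, commutatorElement_def]
      calc s * w * (r * v) * (s * w)⁻¹ * (r * v)⁻¹
          = s * (w * r) * (v * w⁻¹) * s⁻¹ * v⁻¹ * r⁻¹ := by group
        _ = s * (r * w) * (w⁻¹ * v) * s⁻¹ * v⁻¹ * r⁻¹ := by rw [hw' r, (hv' w⁻¹)]
        _ = s * r * (v * s⁻¹) * v⁻¹ * r⁻¹ := by group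
        _ = s * r * (s⁻¹ * v) * v⁻¹ * r⁻¹ := by rw [hv' s⁻¹]
        _ = s * r * s⁻¹ * r⁻¹ := by group
    rw [this]
    exact T.mul_mem (T.mul_mem (T.mul_mem hs hr) (T.inv_mem hs)) (T.inv_mem hr)
  exact hle hzc

end TriLift

end Cfsg.Agent.Lib.SchurAlt
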